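import Groth.Agent.Ega4late.H542.ExtendSection
import Groth.Agent.Ega2.DVRDominate

/-!
# Discrete valuation rings through a point outside a dense open
-/

set_option autoImplicit false
universe u

open CategoryTheory AlgebraicGeometry Limits TopologicalSpace

namespace Groth.Agent.Ega4late.H542.DominatingDVR

open GlueSup NormalSection ExtendSection

/-- A point `x` of a locally Noetherian scheme outside a dense open `U`, whose local ring is a domain:
there is a discrete valuation ring of the fraction field dominating `𝒪_{X,x}`, with generic point in `U`. -/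
theorem exists_dvr_of_dense {X : Scheme.{u}} [IsLocallyNoetherian X] (U : X.Opens)
    (hU : Dense (U : Set X)) (x : X) (hxU : x ∉ U) [IsDomain (X.presheaf.stalk x)] :
    ∃ (R : Type u) (_ : CommRing R) (_ : IsDomain R) (_ : IsDiscreteValuationRing R)
      (u : Spec (CommRingCat.of R) ⟶ X) (ub : Spec (CommRingCat.of (FractionRing R)) ⟶ (U : Scheme.{u})),
      u (IsLocalRing.closedPoint R) = x ∧
        ub ≫ U.ι = Spec.map (CommRingCat.ofHom (algebraMap R (FractionRing R))) ≫ u := by
  obtain ⟨W, hxW, -, hW⟩ := exists_isIntegral_nhd x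
  have : Nonempty (W : Scheme.{u}) := ⟨⟨x, hxW⟩⟩
  let η : (W : Scheme.{u}) := genericPoint (W : Scheme.{u})
  have hη : ∀ z : (W : Scheme.{u}), W.ι η ⤳ W.ι z := fun z =>
    (genericPoint_specializes z).map W.ι.continuous
  have hηU : W.ι η ∈ U := by
    obtain ⟨w, hwW, hwU⟩ := hU.inter_open_nonempty W W.2 ⟨x, hxW⟩
    exact (hη ⟨w, hwW⟩).mem_open U.2 hwU
  let K := FractionRing (X.presheaf.stalk x)
  have hinj : Function.Injective (algebraMap (X.presheaf.stalk x) K) := IsFractionRing.injective _ _
  have hmax : IsLocalRing.maximalIdeal (X.presheaf.stalk x) ≠ ⊥ := by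
    intro hbot
    apply hxU
    have h1 : W.ι η ∈ Set.range (X.fromSpecStalk x) := by
      rw [X.range_fromSpecStalk]
      exact hη ⟨x, hxW⟩
    obtain ⟨z, hz⟩ := h1
    have h2 : (IsLocalRing.closedPoint (X.presheaf.stalk x) : Spec (X.presheaf.stalk x)) ⤳ z := by
      apply (PrimeSpectrum.le_iff_specializes _ _).mp
      change IsLocalRing.maximalIdeal (X.presheaf.stalk x) ≤ _
      rw [hbot]
      exact bot_le
    have h3 := h2.map (X.fromSpecStalk x).continuous
    rw [Scheme.fromSpecStalk_closedPoint, hz] at h3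
    exact h3.mem_open U.2 hηU
  obtain ⟨V, hV, hAV, hVm⟩ := Groth.Agent.Ega2.DVRDominate.exists_dvr_of_isLocalRing
    (A := X.presheaf.stalk x) (K := K) hinj hmax ∅ (by
      rw [Finset.coe_empty, Set.union_empty, eq_top_iff]
      intro z _
      obtain ⟨a, b, hb, rfl⟩ := IsFractionRing.div_surjective (A := X.presheaf.stalk x) z
      exact div_mem (Subfield.subset_closure ⟨a, rfl⟩) (Subfield.subset_closure ⟨b, rfl⟩))
  let τ : X.presheaf.stalk x →+* V := (algebraMap (X.presheaf.stalk x) K).codRestrict V.toSubring hAV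
  have hτ : ∀ a, ((τ a : V) : K) = algebraMap (X.presheaf.stalk x) K a := fun _ => rfl
  have hτinj : Function.Injective τ := fun a b hab => hinj (by rw [← hτ, ← hτ, hab])
  let T : X.presheaf.stalk x ⟶ CommRingCat.of V := CommRingCat.ofHom τ
  let u : Spec (CommRingCat.of V) ⟶ X := Spec.map T ≫ X.fromSpecStalk x
  have hlocal : IsLocalHom τ := by
    refine ⟨fun a ha => ?_⟩
    by_contra hcon
    have h1 : a ∈ IsLocalRing.maximalIdeal (X.presheaf.stalk x) := hcon
    have h2 := (hVm a).2 h1
    rw [ValuationSubring.mem_nonunits_iff_exists_mem_maximalIdeal] at h2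
    obtain ⟨h3, h4⟩ := h2
    exact h4 ha
  have hu : u (IsLocalRing.closedPoint V) = x := by
    have : IsLocalHom T.hom := hlocal
    change (Spec.map T ≫ X.fromSpecStalk x) (IsLocalRing.closedPoint (CommRingCat.of V)) = x
    rw [Scheme.Hom.comp_apply, Spec_closedPoint, Scheme.fromSpecStalk_closedPoint]
  let L := FractionRing V
  have hLinj : Function.Injective (algebraMap V L) := IsFractionRing.injective _ _
  let ρ : Spec (CommRingCat.of L) ⟶ X := Spec.map (CommRingCat.ofHom (algebraMap V L)) ≫ u
  have hρ : ∀ t, ρ t ⤳ W.ι η := by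
    intro t
    let _ : Algebra (X.presheaf.stalk x) L := ((algebraMap V L).comp τ).toAlgebra
    have h1 := generic_specializes_of_specializes x L (hLinj.comp hτinj) t _ (hη ⟨x, hxW⟩)
    have h2 : Spec.map (CommRingCat.ofHom (algebraMap (X.presheaf.stalk x) L)) ≫ X.fromSpecStalk x = ρ := by
      change Spec.map (T ≫ CommRingCat.ofHom (algebraMap V L)) ≫ X.fromSpecStalk x = _
      rw [Spec.map_comp, Category.assoc]
    rw [h2] at h1
    exact h1
  let ub : Spec (CommRingCat.of L) ⟶ U := IsOpenImmersion.lift U.ι ρ (by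
    rw [Scheme.Opens.range_ι]
    rintro _ ⟨t, rfl⟩
    exact (hρ t).mem_open U.2 hηU)
  have hub : ub ≫ U.ι = ρ := IsOpenImmersion.lift_fac _ _ _
  exact ⟨V, inferInstance, inferInstance, hV, u, ub, hu, hub⟩

end Groth.Agent.Ega4late.H542.DominatingDVR
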