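import Groth.Agent.Ega4late.H542.NormalSection
import Mathlib.RingTheory.DiscreteValuationRing.Basic

/-!
# Extending sections of separated quasi-finite morphisms through normal points
-/

set_option autoImplicit false
universe u

open CategoryTheory AlgebraicGeometry Limits TopologicalSpace

namespace Groth.Agent.Ega4late.H542.ExtendSection

open GlueSup NormalSection

/-- The generic point of the spectrum of a domain specializes to every point. -/
theorem generic_specializes (A K : Type u) [CommRing A] [Field K] [Algebra A K]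
    (hinj : Function.Injective (algebraMap A K)) (t : Spec (CommRingCat.of K))
    (z : Spec (CommRingCat.of A)) : Spec.map (CommRingCat.ofHom (algebraMap A K)) t ⤳ z := by
  apply (PrimeSpectrum.le_iff_specializes _ _).mp
  intro a ha
  have h1 : algebraMap A K a ∈ t.asIdeal := ha
  have h2 : algebraMap A K a = 0 := by
    by_contra h0
    exact t.2.ne_top (Ideal.eq_top_of_isUnit_mem _ h1 (isUnit_iff_ne_zero.mpr h0))
  have h3 : a = 0 := hinj (by rw [h2, map_zero])
  rw [h3]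
  exact Ideal.zero_mem _

/-- If `K` is a field over the local ring `𝒪_{X,x}` with `𝒪_{X,x} → K` injective, the image of `Spec K ⟶ X`
specializes to every generization of `x`. -/
theorem generic_specializes_of_specializes {X : Scheme.{u}} (x : X) (K : Type u) [Field K]
    [Algebra (X.presheaf.stalk x) K] (hinj : Function.Injective (algebraMap (X.presheaf.stalk x) K))
    (t : Spec (CommRingCat.of K)) (ξ : X) (hξ : ξ ⤳ x) :
    (Spec.map (CommRingCat.ofHom (algebraMap (X.presheaf.stalk x) K)) ≫ X.fromSpecStalk x) t ⤳ ξ := by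
  have : ξ ∈ Set.range (X.fromSpecStalk x) := by
    rw [X.range_fromSpecStalk]
    exact hξ
  obtain ⟨z, rfl⟩ := this
  rw [Scheme.Hom.comp_apply]
  exact (generic_specializes (X.presheaf.stalk x) K hinj t z).map (X.fromSpecStalk x).continuous

theorem extend_of_specializes {X Y : Scheme.{u}} [IsLocallyNoetherian X] (q : Y ⟶ X)
    [LocallyOfFiniteType q] [IsSeparated q] (U : X.Opens)
    (h : (U : Scheme.{u}) ⟶ Y) (hh : h ≫ q = U.ι) (x : X) [IsDomain (X.presheaf.stalk x)]
    [IsIntegrallyClosed (X.presheaf.stalk x)] (y : Y) (hy : q y = x) (hyq : q.QuasiFiniteAt y)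
    (ξ : (U : Scheme.{u})) (hξx : U.ι ξ ⤳ x) (hξy : h ξ ⤳ y) :
    ∃ (U' : X.Opens) (hUU' : U ≤ U') (h' : (U' : Scheme.{u}) ⟶ Y) (hxU' : x ∈ U'),
        h' ≫ q = U'.ι ∧ X.homOfLE hUU' ≫ h' = h ∧ h' ⟨x, hxU'⟩ = y := by
  let K := FractionRing (X.presheaf.stalk x)
  have hinj : Function.Injective (algebraMap (X.presheaf.stalk x) K) := IsFractionRing.injective _ _
  let σ : Spec (CommRingCat.of K) ⟶ Spec (X.presheaf.stalk x) :=
    Spec.map (CommRingCat.ofHom (algebraMap (X.presheaf.stalk x) K))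
  let j : Spec (CommRingCat.of K) ⟶ X := σ ≫ X.fromSpecStalk x
  have hj : ∀ t, j t ⤳ U.ι ξ := fun t => generic_specializes_of_specializes x K hinj t _ hξx
  have hjU : ∀ t, j t ∈ U := fun t => (hj t).mem_open U.2 ξ.2
  let jU : Spec (CommRingCat.of K) ⟶ U := IsOpenImmersion.lift U.ι j (by
    rw [Scheme.Opens.range_ι]
    rintro _ ⟨t, rfl⟩
    exact hjU t)
  have hjU' : jU ≫ U.ι = j := IsOpenImmersion.lift_fac _ _ _
  let g : Spec (CommRingCat.of K) ⟶ Y := jU ≫ h
  have hg : g ≫ q = Spec.map (CommRingCat.ofHom (algebraMap (X.presheaf.stalk x) K)) ≫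
      X.fromSpecStalk x := by
    rw [Category.assoc, hh, hjU']
    rfl
  have hgy : ∀ t, g t ⤳ y := by
    intro t
    have h1 : jU t ⤳ ξ := by
      apply U.ι.isOpenEmbedding.isInducing.specializes_iff.mp
      rw [← Scheme.Hom.comp_apply, hjU']
      exact hj t
    have h2 : h (jU t) ⤳ h ξ := h1.map h.continuous
    exact h2.trans hξy
  obtain ⟨s, hs, hsg, hsy⟩ := exists_section_stalk q x K g hg y hy hyq hgy
  obtain ⟨W', hxW', f, hf, hfq⟩ := spread_out_of_isGermInjective' (𝟙 X) q s (by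
    rw [hs, Category.comp_id])
  rw [Category.comp_id] at hfq
  obtain ⟨W₀, hxW₀, -, hW₀⟩ := exists_isIntegral_nhd x
  let W : X.Opens := W' ⊓ W₀
  have hxW : x ∈ W := ⟨hxW', hxW₀⟩
  have : Nonempty (W : Scheme.{u}) := ⟨⟨x, hxW⟩⟩
  have hWint : IsIntegral (W : Scheme.{u}) :=
    isIntegral_of_isOpenImmersion (X.homOfLE (inf_le_right : W' ⊓ W₀ ≤ W₀))
  -- the generic point of `W`
  have hjW : ∀ t, ∀ w : X, w ∈ W → j t ⤳ w := by
    intro t w hw
    let η : (W : Scheme.{u}) := genericPoint (W : Scheme.{u})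
    have h1 : ∀ z : (W : Scheme.{u}), W.ι η ⤳ W.ι z := fun z =>
      (genericPoint_specializes z).map W.ι.continuous
    exact (generic_specializes_of_specializes x K hinj t _ (h1 ⟨x, hxW⟩)).trans (h1 ⟨w, hw⟩)
  let jW : Spec (CommRingCat.of K) ⟶ (U ⊓ W : X.Opens) := IsOpenImmersion.lift (U ⊓ W : X.Opens).ι j (by
    rw [Scheme.Opens.range_ι]
    rintro _ ⟨t, rfl⟩
    exact ⟨hjU t, (hjW t x hxW).mem_open W.2 hxW⟩)
  have hjW' : jW ≫ (U ⊓ W : X.Opens).ι = j := IsOpenImmersion.lift_fac _ _ _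
  have hdom : IsDominant jW := by
    refine ⟨fun z => ?_⟩
    let t : Spec (CommRingCat.of K) := IsLocalRing.closedPoint K
    have h1 : jW t ⤳ z := by
      apply (U ⊓ W : X.Opens).ι.isOpenEmbedding.isInducing.specializes_iff.mp
      rw [← Scheme.Hom.comp_apply, hjW']
      exact hjW t _ z.2.2
    exact h1.mem_closed isClosed_closure (subset_closure ⟨t, rfl⟩)
  have hred : IsReduced ((U ⊓ W : X.Opens) : Scheme.{u}) :=
    isReduced_of_isOpenImmersion (X.homOfLE (inf_le_right : U ⊓ W ≤ W))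
  let fW : (W : Scheme.{u}) ⟶ Y := X.homOfLE (inf_le_left : W' ⊓ W₀ ≤ W') ≫ f
  have hfWq : fW ≫ q = W.ι := by
    rw [Category.assoc, hfq, Scheme.homOfLE_ι]
  have hagree : X.homOfLE (inf_le_left : U ⊓ W ≤ U) ≫ h = X.homOfLE (inf_le_right : U ⊓ W ≤ W) ≫ fW := by
    refine ext_of_isDominant_of_isSeparated q ?_ jW ?_
    · rw [Category.assoc, Category.assoc, hh, hfWq, Scheme.homOfLE_ι, Scheme.homOfLE_ι]
    · have h1 : jW ≫ X.homOfLE (inf_le_left : U ⊓ W ≤ U) = jU := by
        rw [← cancel_mono U.ι, Category.assoc, Scheme.homOfLE_ι, hjW', hjU']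
      have h2 : jW ≫ X.homOfLE (inf_le_right : U ⊓ W ≤ W) ≫ X.homOfLE (inf_le_left : W' ⊓ W₀ ≤ W') =
          σ ≫ W'.fromSpecStalkOfMem x hxW' := by
        rw [← cancel_mono W'.ι]
        simp only [Category.assoc, Scheme.homOfLE_ι, hjW', Scheme.Opens.fromSpecStalkOfMem_ι]
        rfl
      have h3 : jW ≫ X.homOfLE (inf_le_right : U ⊓ W ≤ W) ≫ fW = σ ≫ s := by
        rw [hf, ← Category.assoc σ, ← h2, Category.assoc, Category.assoc]
      rw [h3, ← Category.assoc, h1]
      exact hsg.symm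
  obtain ⟨k, hk₁, hk₂⟩ := exists_glue_sup U W h fW hagree
  refine ⟨U ⊔ W, le_sup_left, k, Or.inr hxW, ?_, hk₁, ?_⟩
  · refine hom_ext_sup U W ?_ ?_
    · rw [← Category.assoc, hk₁, hh, Scheme.homOfLE_ι]
    · rw [← Category.assoc, hk₂, hfWq, Scheme.homOfLE_ι]
  · have e1 : (X.homOfLE (le_sup_right : W ≤ U ⊔ W)) ⟨x, hxW⟩ =
        (⟨x, Or.inr hxW⟩ : ((U ⊔ W : X.Opens) : Scheme.{u})) := by
      apply (U ⊔ W : X.Opens).ι.isOpenEmbedding.injective
      exact congr($(X.homOfLE_ι (le_sup_right : W ≤ U ⊔ W)) (show (W : Scheme.{u}) from ⟨x, hxW⟩))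
    have e2 : (X.homOfLE (inf_le_left : W' ⊓ W₀ ≤ W')) ⟨x, hxW⟩ =
        W'.fromSpecStalkOfMem x hxW' (IsLocalRing.closedPoint _) := by
      apply W'.ι.isOpenEmbedding.injective
      rw [← Scheme.Hom.comp_apply, ← Scheme.Hom.comp_apply, Scheme.homOfLE_ι,
        Scheme.Opens.fromSpecStalkOfMem_ι, Scheme.fromSpecStalk_closedPoint]
      rfl
    rw [← hsy, hf, Scheme.Hom.comp_apply, ← e2, ← Scheme.Hom.comp_apply]
    change _ = fW ⟨x, hxW⟩
    rw [← hk₂, Scheme.Hom.comp_apply, e1]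

end Groth.Agent.Ega4late.H542.ExtendSection
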