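import Groth.Agent.Ega4late.H542.GlueSup
import Mathlib.AlgebraicGeometry.Morphisms.QuasiFinite
import Mathlib.AlgebraicGeometry.Morphisms.Separated
import Mathlib.RingTheory.ZariskisMainTheorem

/-!
# Sections of quasi-finite morphisms through a normal point

* `range_le_of_quasiFinite`: let `A` be the localization of `A₀` at a prime `p`, `A` an integrally closed
  domain with fraction field `K`, `B` a finite type quasi-finite `A₀`-algebra, `ψ : B → K` an
  `A₀`-homomorphism, `q` a prime of `B` over `p` containing `ker ψ`; then the image of `ψ` lies in `A`.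
-/

set_option autoImplicit false
universe u

open CategoryTheory AlgebraicGeometry Limits TopologicalSpace

namespace Groth.Agent.Ega4late.H542.NormalSection

theorem range_le_of_quasiFinite {A₀ A B K : Type u} [CommRing A₀] [CommRing A] [CommRing B] [Field K]
    [Algebra A₀ A] [Algebra A₀ B] [Algebra A K] [Algebra A₀ K] [IsScalarTower A₀ A K]
    [IsDomain A] [IsIntegrallyClosed A] [IsFractionRing A K]
    (p : Ideal A₀) [p.IsPrime] [IsLocalization.AtPrime A p]
    [Algebra.FiniteType A₀ B] (ψ : B →ₐ[A₀] K) (q : Ideal B) [q.IsPrime] [Algebra.QuasiFiniteAt A₀ q]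
    (hq : q.comap (algebraMap A₀ B) = p) (hψ : RingHom.ker ψ.toRingHom ≤ q) (b : B) :
    ∃ a : A, algebraMap A K a = ψ b := by
  obtain ⟨r, hr, hri, H⟩ := Algebra.zariskisMainProperty_iff.mp
    (Algebra.ZariskisMainProperty.of_finiteType (R := A₀) q)
  have hint : ∀ c : B, IsIntegral A₀ c → ∃ a : A, algebraMap A K a = ψ c := by
    intro c hc
    have h1 : IsIntegral A₀ (ψ c) := hc.map ψ
    have h2 : IsIntegral A (ψ c) := h1.tower_top
    exact IsIntegrallyClosed.isIntegral_iff.mp h2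
  obtain ⟨a, ha⟩ := hint r hri
  obtain ⟨m, hm⟩ := H b
  obtain ⟨c, hc⟩ := hint _ hm
  -- `a` is a unit
  have hau : IsUnit a := by
    obtain ⟨a', s, rfl⟩ := IsLocalization.exists_mk'_eq p.primeCompl a
    rw [IsLocalization.AtPrime.isUnit_mk'_iff A p]
    intro ha'
    have h1 : ψ (algebraMap A₀ B s * r - algebraMap A₀ B a') = 0 := by
      rw [map_sub, map_mul, ψ.commutes, ψ.commutes, ← ha, IsScalarTower.algebraMap_apply A₀ A K,
        IsScalarTower.algebraMap_apply A₀ A K a', ← map_mul, ← map_sub, IsLocalization.mk'_spec',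
        sub_self, map_zero]
    have h2 : algebraMap A₀ B s * r - algebraMap A₀ B a' ∈ q := hψ h1
    have h3 : algebraMap A₀ B a' ∈ q := by
      rw [← Ideal.mem_comap, hq]; exact ha'
    have h4 : algebraMap A₀ B s * r ∈ q := by simpa using q.add_mem h2 h3
    rcases Ideal.IsPrime.mem_or_mem ‹_› h4 with h5 | h5
    · rw [← Ideal.mem_comap, hq] at h5
      exact s.2 h5
    · exact hr h5
  obtain ⟨v, rfl⟩ := hau
  refine ⟨((v⁻¹ : Aˣ) : A) ^ m * c, ?_⟩
  have hv : algebraMap A K ((v⁻¹ : Aˣ) : A) * algebraMap A K (v : A) = 1 := by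
    rw [← map_mul, Units.inv_mul, map_one]
  rw [map_mul, map_pow, hc, map_mul, map_pow, ← ha, ← mul_assoc, ← mul_pow, hv, one_pow, one_mul]

/-- The closed point is sent to the given prime. -/
theorem comap_maximalIdeal_eq {A₀ A B : Type u} [CommRing A₀] [CommRing A] [CommRing B]
    [Algebra A₀ A] [Algebra A₀ B] [IsLocalRing A]
    (p : Ideal A₀) [p.IsPrime] [IsLocalization.AtPrime A p]
    (φ : B →ₐ[A₀] A) (q : Ideal B) [q.IsPrime]
    (hq : q.comap (algebraMap A₀ B) = p) (hφ : RingHom.ker φ.toRingHom ≤ q) :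
    (IsLocalRing.maximalIdeal A).comap φ.toRingHom = q := by
  ext b
  obtain ⟨a', s, h⟩ := IsLocalization.exists_mk'_eq p.primeCompl (φ b)
  have h1 : φ (algebraMap A₀ B s * b - algebraMap A₀ B a') = 0 := by
    rw [map_sub, map_mul, φ.commutes, φ.commutes, ← h, IsLocalization.mk'_spec', sub_self]
  have h2 : algebraMap A₀ B s * b - algebraMap A₀ B a' ∈ q := hφ h1
  have h3 : φ b ∈ IsLocalRing.maximalIdeal A ↔ a' ∈ p := by
    rw [← h, IsLocalization.AtPrime.mk'_mem_maximal_iff A p]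
  have h4 : algebraMap A₀ B a' ∈ q ↔ a' ∈ p := by rw [← Ideal.mem_comap, hq]
  have h5 : algebraMap A₀ B s ∉ q := fun h5 => s.2 (by rw [← Ideal.mem_comap, hq] at h5; exact h5)
  rw [Ideal.mem_comap]
  change φ b ∈ _ ↔ _
  rw [h3, ← h4]
  constructor
  · intro h6
    have : algebraMap A₀ B s * b ∈ q := by simpa using q.add_mem h2 h6
    exact (Ideal.IsPrime.mem_or_mem ‹_› this).resolve_left h5
  · intro h6
    have : algebraMap A₀ B s * b ∈ q := q.mul_mem_left _ h6
    simpa using q.sub_mem this h2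

/-- Lifting a ring homomorphism through an injective one. -/
theorem exists_ringHom_lift {A B K : Type u} [CommRing A] [CommRing B] [CommRing K] (i : A →+* K)
    (hi : Function.Injective i) (ψ : B →+* K) (h : ∀ b, ∃ a, i a = ψ b) : ∃ φ : B →+* A, i.comp φ = ψ := by
  choose f hf using h
  exact ⟨{ toFun := f
           map_one' := hi (by rw [hf, map_one, map_one])
           map_mul' := fun a b => hi (by rw [map_mul, hf, hf, hf, map_mul])
           map_zero' := hi (by rw [hf, map_zero, map_zero])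
           map_add' := fun a b => hi (by rw [map_add, hf, hf, hf, map_add]) }, RingHom.ext hf⟩

/-- Let `q : Y ⟶ X` be locally of finite type, `x` a point of `X` whose local ring is an integrally closed
domain with fraction field `K`, `g` an `X`-morphism `Spec K ⟶ Y` and `y` a point of `Y` over `x` which is a
specialization of the image of `g` and at which `q` is quasi-finite. Then `g` extends to an `X`-morphism
`Spec 𝒪_{X,x} ⟶ Y` through `y`. -/
theorem exists_section_stalk {X Y : Scheme.{u}} (q : Y ⟶ X) [LocallyOfFiniteType q] (x : X)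
    [IsDomain (X.presheaf.stalk x)] [IsIntegrallyClosed (X.presheaf.stalk x)]
    (K : Type u) [Field K] [Algebra (X.presheaf.stalk x) K] [IsFractionRing (X.presheaf.stalk x) K]
    (g : Spec (CommRingCat.of K) ⟶ Y)
    (hg : g ≫ q = Spec.map (CommRingCat.ofHom (algebraMap (X.presheaf.stalk x) K)) ≫ X.fromSpecStalk x)
    (y : Y) (hy : q y = x) (hyq : q.QuasiFiniteAt y) (hgy : ∀ t, g t ⤳ y) :
    ∃ s : Spec (X.presheaf.stalk x) ⟶ Y, s ≫ q = X.fromSpecStalk x ∧
      Spec.map (CommRingCat.ofHom (algebraMap (X.presheaf.stalk x) K)) ≫ s = g ∧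
      s (IsLocalRing.closedPoint _) = y := by
  obtain ⟨_, ⟨W : X.Opens, hW, rfl⟩, hxW, -⟩ :=
    X.isBasis_affineOpens.exists_subset_of_mem_open (Set.mem_univ x) isOpen_univ
  obtain ⟨_, ⟨V : Y.Opens, hV, rfl⟩, hyV, hVW⟩ :=
    Y.isBasis_affineOpens.exists_subset_of_mem_open (show y ∈ (q ⁻¹ᵁ W : Y.Opens) from
      (by show q y ∈ W; rw [hy]; exact hxW)) (q ⁻¹ᵁ W).2
  replace hVW : V ≤ q ⁻¹ᵁ W := hVW
  replace hV : IsAffineOpen V := hV
  replace hW : IsAffineOpen W := hW
  let τ : CommRingCat.of (X.presheaf.stalk x) ⟶ CommRingCat.of K :=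
    CommRingCat.ofHom (algebraMap (X.presheaf.stalk x) K)
  -- lift `g` to `Spec K ⟶ Spec Γ(Y, V)`
  have hrange : Set.range g ⊆ Set.range hV.fromSpec := by
    rw [hV.range_fromSpec]
    rintro _ ⟨t, rfl⟩
    exact (hgy t).mem_open V.2 hyV
  let g' : Spec (CommRingCat.of K) ⟶ Spec Γ(Y, V) := IsOpenImmersion.lift hV.fromSpec g hrange
  have hg' : g' ≫ hV.fromSpec = g := IsOpenImmersion.lift_fac _ _ _
  obtain ⟨ψ, hψ⟩ := Spec.map_surjective g'
  rw [← hψ] at hg'
  have hcomm : q.appLE W V hVW ≫ ψ = X.presheaf.germ W x hxW ≫ τ := by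
    apply Spec.map_injective
    rw [← cancel_mono hW.fromSpec, Spec.map_comp, Spec.map_comp, Category.assoc, Category.assoc,
      IsAffineOpen.SpecMap_appLE_fromSpec q hW hV hVW, reassoc_of% hg', hg,
      ← hW.fromSpecStalk_eq_fromSpecStalk hxW, IsAffineOpen.fromSpecStalk]
  -- the algebra structures
  let px := (hW.primeIdealOf ⟨x, hxW⟩).asIdeal
  let qy := (hV.primeIdealOf ⟨y, hyV⟩).asIdeal
  let : Algebra Γ(X, W) (X.presheaf.stalk x) := (X.presheaf.germ W x hxW).hom.toAlgebra
  have hloc : IsLocalization.AtPrime (X.presheaf.stalk x) px := hW.isLocalization_stalk ⟨x, hxW⟩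
  let : Algebra Γ(X, W) Γ(Y, V) := (q.appLE W V hVW).hom.toAlgebra
  let : Algebra Γ(X, W) K := ((X.presheaf.germ W x hxW) ≫ τ).hom.toAlgebra
  have : IsScalarTower Γ(X, W) (X.presheaf.stalk x) K := .of_algebraMap_eq fun _ => rfl
  have : Algebra.FiniteType Γ(X, W) Γ(Y, V) := q.finiteType_appLE hW hV hVW
  have : Algebra.QuasiFiniteAt Γ(X, W) qy := hyq.quasiFiniteAt hV hW hVW hyV
  let ψ' : Γ(Y, V) →ₐ[Γ(X, W)] K :=
    { ψ.hom with commutes' := fun a => congr($(hcomm).hom a) }
  have hqy : qy.comap (algebraMap Γ(X, W) Γ(Y, V)) = px := by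
    suffices hW.primeIdealOf ⟨x, hxW⟩ = Spec.map (q.appLE W V hVW) (hV.primeIdealOf ⟨y, hyV⟩) from
      congr(($this).1).symm
    apply hW.fromSpec.isOpenEmbedding.injective
    rw [hW.fromSpec_primeIdealOf, ← Scheme.Hom.comp_apply,
      IsAffineOpen.SpecMap_appLE_fromSpec q hW hV hVW, Scheme.Hom.comp_apply, hV.fromSpec_primeIdealOf]
    exact hy.symm
  have hker : RingHom.ker ψ'.toRingHom ≤ qy := by
    let t : Spec (CommRingCat.of K) := IsLocalRing.closedPoint K
    have h1 : hV.fromSpec (Spec.map ψ t) ⤳ hV.fromSpec (hV.primeIdealOf ⟨y, hyV⟩) := by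
      rw [hV.fromSpec_primeIdealOf, ← Scheme.Hom.comp_apply, hg']
      exact hgy t
    have h2 : Spec.map ψ t ⤳ hV.primeIdealOf ⟨y, hyV⟩ :=
      hV.fromSpec.isOpenEmbedding.isInducing.specializes_iff.mp h1
    have h3 : (Spec.map ψ t).asIdeal ≤ qy := (PrimeSpectrum.le_iff_specializes _ _).mpr h2
    intro b hb
    apply h3
    change ψ b ∈ IsLocalRing.maximalIdeal K
    have : ψ b = 0 := hb
    rw [this]
    exact Ideal.zero_mem _
  have key := range_le_of_quasiFinite (A := X.presheaf.stalk x) (K := K) px ψ' qy hqy hker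
  obtain ⟨φ, hφ⟩ := exists_ringHom_lift (algebraMap (X.presheaf.stalk x) K)
    (IsFractionRing.injective _ _) ψ'.toRingHom key
  let Φ : Γ(Y, V) ⟶ X.presheaf.stalk x := CommRingCat.ofHom φ
  have hφτ : Φ ≫ τ = ψ := by
    ext b
    exact congr($hφ b)
  have hmono : Mono τ := ConcreteCategory.mono_of_injective _ (IsFractionRing.injective _ _)
  have hφ2 : q.appLE W V hVW ≫ Φ = X.presheaf.germ W x hxW := by
    rw [← cancel_mono τ]
    exact (Category.assoc _ _ _).trans ((congrArg (fun z => q.appLE W V hVW ≫ z) hφτ).trans hcomm)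
  have hs : (Spec.map Φ ≫ hV.fromSpec) ≫ q = X.fromSpecStalk x := by
    rw [Category.assoc, ← IsAffineOpen.SpecMap_appLE_fromSpec q hW hV hVW, ← Spec.map_comp_assoc, hφ2,
      ← hW.fromSpecStalk_eq_fromSpecStalk hxW, IsAffineOpen.fromSpecStalk]
  have hs' : Spec.map τ ≫ (Spec.map Φ ≫ hV.fromSpec) = g := by
    rw [← hg', ← hφτ]
    exact (Spec.map_comp_assoc Φ τ _).symm
  refine ⟨Spec.map Φ ≫ hV.fromSpec, hs, hs', ?_⟩
  let φ' : Γ(Y, V) →ₐ[Γ(X, W)] X.presheaf.stalk x :=
    { φ with commutes' := fun a => congr($(hφ2).hom a) }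
  have hker' : RingHom.ker φ'.toRingHom ≤ qy := by
    intro b hb
    apply hker
    have h1 : φ b = 0 := hb
    have h2 : algebraMap (X.presheaf.stalk x) K (φ b) = ψ'.toRingHom b := congr($hφ b)
    rw [RingHom.mem_ker, ← h2, h1, map_zero]
  have h1 := comap_maximalIdeal_eq px φ' qy hqy hker'
  have h2 : Spec.map Φ (IsLocalRing.closedPoint _) = hV.primeIdealOf ⟨y, hyV⟩ :=
    PrimeSpectrum.ext h1
  rw [Scheme.Hom.comp_apply]
  erw [h2]
  exact hV.fromSpec_primeIdealOf ⟨y, hyV⟩

end Groth.Agent.Ega4late.H542.NormalSection
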